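import Cfsg.Agent.OD.Pre
import Cfsg.Agent.H6.TCTop
import Cfsg.Agent.H6.HST2.C
set_option autoImplicit false
set_option maxRecDepth 100000
set_option Elab.async false
set_option linter.all false
namespace CfH6.HST2
open CfH6
theorem p0 : C.OkL 256 4864 := C.okL_of 256 36 0 4864 (by decide) (by decide +kernel)
theorem p1 : C.OkL 4864 9216 := C.okL_of 4864 34 0 9216 (by decide) (by decide +kernel)
theorem p2 : C.OkL 9216 13440 := C.okL_of 9216 33 0 13440 (by decide) (by decide +kernel)
theorem p3 : C.OkL 13440 17536 := C.okL_of 13440 32 0 17536 (by decide) (by decide +kernel)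
theorem p4 : C.OkL 17536 21632 := C.okL_of 17536 32 0 21632 (by decide) (by decide +kernel)
theorem p5 : C.OkL 21632 25600 := C.okL_of 21632 31 0 25600 (by decide) (by decide +kernel)
theorem p6 : C.OkL 25600 29568 := C.okL_of 25600 31 0 29568 (by decide) (by decide +kernel)
theorem p7 : C.OkL 29568 33408 := C.okL_of 29568 30 0 33408 (by decide) (by decide +kernel)
theorem p8 : C.OkL 33408 37248 := C.okL_of 33408 30 0 37248 (by decide) (by decide +kernel)
theorem p9 : C.OkL 37248 41088 := C.okL_of 37248 30 0 41088 (by decide) (by decide +kernel)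
theorem p10 : C.OkL 41088 44928 := C.okL_of 41088 30 0 44928 (by decide) (by decide +kernel)
theorem p11 : C.OkL 44928 48640 := C.okL_of 44928 29 0 48640 (by decide) (by decide +kernel)
theorem p12 : C.OkL 48640 52352 := C.okL_of 48640 29 0 52352 (by decide) (by decide +kernel)
theorem p13 : C.OkL 52352 55936 := C.okL_of 52352 28 0 55936 (by decide) (by decide +kernel)
theorem p14 : C.OkL 55936 59520 := C.okL_of 55936 28 0 59520 (by decide) (by decide +kernel)
theorem p15 : C.OkL 59520 62976 := C.okL_of 59520 27 0 62976 (by decide) (by decide +kernel)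
theorem p16 : C.OkL 62976 66304 := C.okL_of 62976 26 0 66304 (by decide) (by decide +kernel)
theorem p17 : C.OkL 66304 69632 := C.okL_of 66304 26 0 69632 (by decide) (by decide +kernel)
theorem p18 : C.OkL 69632 73088 := C.okL_of 69632 27 0 73088 (by decide) (by decide +kernel)
theorem p19 : C.OkL 73088 76544 := C.okL_of 73088 27 0 76544 (by decide) (by decide +kernel)
end CfH6.HST2
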