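import Cfsg.Agent.OD.Pre
import Cfsg.Agent.H6.TCTop
import Cfsg.Agent.H6.HST2.C
set_option autoImplicit false
set_option maxRecDepth 100000
set_option Elab.async false
set_option linter.all false
namespace CfH6.HST2
open CfH6
theorem p20 : C.OkL 76544 79872 := C.okL_of 76544 26 0 79872 (by decide) (by decide +kernel)
theorem p21 : C.OkL 79872 83200 := C.okL_of 79872 26 0 83200 (by decide) (by decide +kernel)
theorem p22 : C.OkL 83200 86528 := C.okL_of 83200 26 0 86528 (by decide) (by decide +kernel)
theorem p23 : C.OkL 86528 89856 := C.okL_of 86528 26 0 89856 (by decide) (by decide +kernel)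
theorem p24 : C.OkL 89856 93184 := C.okL_of 89856 26 0 93184 (by decide) (by decide +kernel)
theorem p25 : C.OkL 93184 96384 := C.okL_of 93184 25 0 96384 (by decide) (by decide +kernel)
theorem p26 : C.OkL 96384 98944 := C.okL_of 96384 20 0 98944 (by decide) (by decide +kernel)
theorem p27 : C.OkL 98944 101632 := C.okL_of 98944 21 0 101632 (by decide) (by decide +kernel)
theorem p28 : C.OkL 101632 104448 := C.okL_of 101632 22 0 104448 (by decide) (by decide +kernel)
theorem p29 : C.OkL 104448 107392 := C.okL_of 104448 23 0 107392 (by decide) (by decide +kernel)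
theorem p30 : C.OkL 107392 110336 := C.okL_of 107392 23 0 110336 (by decide) (by decide +kernel)
theorem p31 : C.OkL 110336 113408 := C.okL_of 110336 24 0 113408 (by decide) (by decide +kernel)
theorem p32 : C.OkL 113408 116608 := C.okL_of 113408 25 0 116608 (by decide) (by decide +kernel)
theorem p33 : C.OkL 116608 119936 := C.okL_of 116608 26 0 119936 (by decide) (by decide +kernel)
theorem p34 : C.OkL 119936 123264 := C.okL_of 119936 26 0 123264 (by decide) (by decide +kernel)
theorem p35 : C.OkL 123264 126256 := C.okL_of 123264 23 48 126256 (by decide) (by decide +kernel)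
theorem p36 : C.OkR 126256 129072 := C.okR_of 126256 22 0 129072 (by decide) (by decide +kernel)
theorem p37 : C.OkR 129072 132016 := C.okR_of 129072 23 0 132016 (by decide) (by decide +kernel)
theorem p38 : C.OkR 132016 134960 := C.okR_of 132016 23 0 134960 (by decide) (by decide +kernel)
theorem p39 : C.OkR 134960 137904 := C.okR_of 134960 23 0 137904 (by decide) (by decide +kernel)
end CfH6.HST2
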