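import Cfsg.Agent.OD.Pre
import Cfsg.Agent.H6.TCTop
import Cfsg.Agent.H6.HST2.C
set_option autoImplicit false
set_option maxRecDepth 100000
set_option Elab.async false
set_option linter.all false
namespace CfH6.HST2
open CfH6
theorem p40 : C.OkR 137904 140848 := C.okR_of 137904 23 0 140848 (by decide) (by decide +kernel)
theorem p41 : C.OkR 140848 143792 := C.okR_of 140848 23 0 143792 (by decide) (by decide +kernel)
theorem p42 : C.OkR 143792 146736 := C.okR_of 143792 23 0 146736 (by decide) (by decide +kernel)
theorem p43 : C.OkR 146736 149680 := C.okR_of 146736 23 0 149680 (by decide) (by decide +kernel)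
theorem p44 : C.OkR 149680 152624 := C.okR_of 149680 23 0 152624 (by decide) (by decide +kernel)
theorem p45 : C.OkR 152624 155568 := C.okR_of 152624 23 0 155568 (by decide) (by decide +kernel)
theorem p46 : C.OkR 155568 158512 := C.okR_of 155568 23 0 158512 (by decide) (by decide +kernel)
theorem p47 : C.OkR 158512 161456 := C.okR_of 158512 23 0 161456 (by decide) (by decide +kernel)
theorem p48 : C.OkR 161456 164400 := C.okR_of 161456 23 0 164400 (by decide) (by decide +kernel)
theorem p49 : C.OkR 164400 167344 := C.okR_of 164400 23 0 167344 (by decide) (by decide +kernel)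
theorem p50 : C.OkR 167344 170288 := C.okR_of 167344 23 0 170288 (by decide) (by decide +kernel)
theorem p51 : C.OkR 170288 173232 := C.okR_of 170288 23 0 173232 (by decide) (by decide +kernel)
theorem p52 : C.OkR 173232 176048 := C.okR_of 173232 22 0 176048 (by decide) (by decide +kernel)
theorem p53 : C.OkR 176048 178736 := C.okR_of 176048 21 0 178736 (by decide) (by decide +kernel)
theorem p54 : C.OkR 178736 181552 := C.okR_of 178736 22 0 181552 (by decide) (by decide +kernel)
theorem p55 : C.OkR 181552 184368 := C.okR_of 181552 22 0 184368 (by decide) (by decide +kernel)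
theorem p56 : C.OkR 184368 187184 := C.okR_of 184368 22 0 187184 (by decide) (by decide +kernel)
theorem p57 : C.OkR 187184 189872 := C.okR_of 187184 21 0 189872 (by decide) (by decide +kernel)
theorem p58 : C.OkR 189872 192560 := C.okR_of 189872 21 0 192560 (by decide) (by decide +kernel)
theorem p59 : C.OkR 192560 195248 := C.okR_of 192560 21 0 195248 (by decide) (by decide +kernel)
end CfH6.HST2
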