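import Cfsg.Agent.OD.Pre
import Cfsg.Agent.H6.TCTop
import Cfsg.Agent.H6.HST2.C
set_option autoImplicit false
set_option maxRecDepth 100000
set_option Elab.async false
set_option linter.all false
namespace CfH6.HST2
open CfH6
theorem p60 : C.OkR 195248 197936 := C.okR_of 195248 21 0 197936 (by decide) (by decide +kernel)
theorem p61 : C.OkR 197936 200426 := C.okR_of 197936 19 58 200426 (by decide) (by decide +kernel)
end CfH6.HST2
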